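import Mathlib
import Cfsg.Agent.Lib.Helper30.DSims.Defs
import Cfsg.Agent.Lib.Helper84.PCoreBasic

set_option autoImplicit false

/-! Package (P6) of project DSIMS: extraction of the dihedral data from an isomorphism
`H ⧸ O₂(H) ≃* DihedralGroup n`. -/

namespace Cfsg.Agent.Lib.Helper61.DSims

open Cfsg Cfsg.Agent.Lib.Helper30.DSims

universe u

/-- The rotation subgroup of a dihedral group. -/
def rot (n : ℕ) : Subgroup (DihedralGroup n) where
  carrier := {x | ∃ i : ZMod n, x = DihedralGroup.r i}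
  mul_mem' := by
    rintro _ _ ⟨i, rfl⟩ ⟨j, rfl⟩
    exact ⟨i + j, DihedralGroup.r_mul_r i j⟩
  one_mem' := ⟨0, DihedralGroup.one_def⟩
  inv_mem' := by
    rintro _ ⟨i, rfl⟩
    exact ⟨-i, rfl⟩

theorem r_mem_rot {n : ℕ} (i : ZMod n) : DihedralGroup.r i ∈ rot n := ⟨i, rfl⟩

theorem sr_not_mem_rot {n : ℕ} (i : ZMod n) : DihedralGroup.sr i ∉ rot n := by
  rintro ⟨j, hj⟩
  cases hj

theorem rot_index (n : ℕ) : (rot n).index = 2 := by
  rw [Subgroup.index_eq_two_iff]
  refine ⟨DihedralGroup.sr 0, fun b => ?_⟩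
  cases b with
  | r i =>
    right
    refine ⟨r_mem_rot i, ?_⟩
    rw [DihedralGroup.r_mul_sr]; exact sr_not_mem_rot _
  | sr i =>
    left
    refine ⟨?_, sr_not_mem_rot i⟩
    rw [DihedralGroup.sr_mul_sr]; exact r_mem_rot _

theorem r_pow_card {n : ℕ} (i : ZMod n) [NeZero n] : (DihedralGroup.r i) ^ n = 1 := by
  have h1 : DihedralGroup.r i = (DihedralGroup.r (1 : ZMod n)) ^ i.val := by
    rw [DihedralGroup.r_one_pow, ZMod.natCast_zmod_val]
  rw [h1, ← pow_mul, mul_comm, pow_mul, DihedralGroup.r_one_pow_n, one_pow]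

theorem lemDihExtract : LemDihExtract.{u} := by
  intro G _ _ H n hn2 ⟨e⟩ P hPH hP2 hPidx
  classical
  have hne : NeZero n := ⟨by omega⟩
  have hfact : Fact (Nat.Prime 2) := ⟨Nat.prime_two⟩
  have hfact1 : Fact (1 < n) := ⟨by omega⟩
  set K : Subgroup ↥H := Cfsg.pCore 2 ↥H with hKdef
  let φ : ↥H →* DihedralGroup n := e.toMonoidHom.comp (QuotientGroup.mk' K)
  have hφsurj : Function.Surjective φ := e.surjective.comp (QuotientGroup.mk'_surjective K)
  have hφker : ∀ g : ↥H, φ g = 1 ↔ g ∈ K := by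
    intro g
    show e (QuotientGroup.mk' K g) = 1 ↔ g ∈ K
    rw [map_eq_one_iff e e.injective, QuotientGroup.mk'_apply, QuotientGroup.eq_one_iff]
  have hK2 : IsPGroup 2 K := Cfsg.Agent.Lib.Helper84.pCore_isPGroup 2 ↥H
  have hker2 : IsPGroup 2 φ.ker := by
    have : φ.ker = K := by
      ext g; rw [MonoidHom.mem_ker]; exact hφker g
    rw [this]; exact hK2
  -- Step A: `n` is odd
  have hodd : Odd n := by
    by_contra hne'
    rw [Nat.not_odd_iff_even] at hne'
    obtain ⟨j, hj⟩ := hne'
    have hjj : (j : ZMod n) + (j : ZMod n) = 0 := by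
      have h0 : ((j + j : ℕ) : ZMod n) = 0 := by rw [← hj]; exact ZMod.natCast_self n
      push_cast at h0; exact h0
    let z : DihedralGroup n := DihedralGroup.r (j : ZMod n)
    have hz2 : z * z = 1 := by
      show DihedralGroup.r (j : ZMod n) * DihedralGroup.r (j : ZMod n) = 1
      rw [DihedralGroup.r_mul_r, DihedralGroup.one_def, hjj]
    have hz1 : z ≠ 1 := by
      intro h
      have h' : DihedralGroup.r (j : ZMod n) = DihedralGroup.r 0 := h.trans DihedralGroup.one_def
      have h'' : (j : ZMod n) = 0 := DihedralGroup.r.inj h'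
      rw [ZMod.natCast_eq_zero_iff] at h''
      have h3 := Nat.le_of_dvd (by omega) h''
      omega
    have hzc : ∀ g : DihedralGroup n, g * z = z * g := by
      intro g
      cases g with
      | r i =>
        show DihedralGroup.r i * DihedralGroup.r (j : ZMod n) =
          DihedralGroup.r (j : ZMod n) * DihedralGroup.r i
        rw [DihedralGroup.r_mul_r, DihedralGroup.r_mul_r, add_comm]
      | sr i =>
        show DihedralGroup.sr i * DihedralGroup.r (j : ZMod n) =
          DihedralGroup.r (j : ZMod n) * DihedralGroup.sr i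
        rw [DihedralGroup.sr_mul_r, DihedralGroup.r_mul_sr]
        congr 1
        linear_combination hjj
    have hZn : (Subgroup.zpowers z).Normal := by
      constructor
      intro x hx g
      have hgx : g * x * g⁻¹ = x := by
        obtain ⟨k, rfl⟩ := Subgroup.mem_zpowers_iff.mp hx
        have hc : Commute g (z ^ k) := (show Commute g z from hzc g).zpow_right k
        rw [hc.eq, mul_inv_cancel_right]
      rw [hgx]; exact hx
    have hZ2 : IsPGroup 2 (Subgroup.zpowers z) := by
      apply IsPGroup.of_card (n := 1)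
      rw [Nat.card_zpowers, pow_one]
      exact orderOf_eq_prime (by rw [pow_two]; exact hz2) hz1
    have hNn : ((Subgroup.zpowers z).comap φ).Normal := hZn.comap φ
    have hN2 : IsPGroup 2 ((Subgroup.zpowers z).comap φ) := hZ2.comap_of_ker_isPGroup φ hker2
    have hNK : (Subgroup.zpowers z).comap φ ≤ K := Cfsg.Agent.Lib.Helper84.le_pCore hNn hN2
    obtain ⟨g, hg⟩ := hφsurj z
    have hgN : g ∈ (Subgroup.zpowers z).comap φ := by
      rw [Subgroup.mem_comap, hg]; exact Subgroup.mem_zpowers z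
    have hgK : φ g = 1 := (hφker g).mpr (hNK hgN)
    exact hz1 (hg ▸ hgK)
  -- Step B: the dihedral data
  obtain ⟨x₀, hx₀⟩ := hφsurj (DihedralGroup.r 1)
  have hKM : K ≤ (rot n).comap φ := by
    intro g hg
    show φ g ∈ rot n
    rw [(hφker g).mpr hg]; exact (rot n).one_mem
  have hdih : DihT ↥H K ((rot n).comap φ) x₀ n := by
    refine ⟨inferInstance, hKM, ?_, hodd, ?_, ?_, ?_, ?_, ?_⟩
    · rw [Subgroup.index_comap_of_surjective _ hφsurj]; exact rot_index n
    · show φ x₀ ∈ rot n
      rw [hx₀]; exact r_mem_rot 1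
    · intro h
      have h1 := (hφker x₀).mpr h
      rw [hx₀] at h1
      have h' : (1 : ZMod n) = 0 := DihedralGroup.r.inj (h1.trans DihedralGroup.one_def)
      exact one_ne_zero h'
    · rw [← hφker, map_pow, hx₀]; exact DihedralGroup.r_one_pow_n
    · intro m hm
      obtain ⟨i, hi⟩ := (show φ m ∈ rot n from hm)
      refine ⟨(-i).val, ?_⟩
      rw [← hφker, map_mul, map_pow, hx₀, hi, DihedralGroup.r_one_pow, DihedralGroup.r_mul_r,
        ZMod.natCast_zmod_val, add_neg_cancel]
      rfl
    · intro h hh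
      have hh' : φ h ∉ rot n := hh
      rw [← hφker, map_mul, map_mul, map_mul, map_inv, hx₀]
      generalize φ h = y at hh' ⊢
      cases y with
      | r i => exact absurd (r_mem_rot i) hh'
      | sr i =>
        show DihedralGroup.sr i * DihedralGroup.r 1 * DihedralGroup.sr i * DihedralGroup.r 1 = 1
        rw [DihedralGroup.sr_mul_r, DihedralGroup.sr_mul_sr, DihedralGroup.r_mul_r,
          DihedralGroup.one_def]
        congr 1
        ring
  -- Step C: the Sylow facts
  have hP'2 : IsPGroup 2 (P.subgroupOf H) := hP2.comap_of_injective H.subtype H.subtype_injective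
  have hPidx' : ¬ 2 ∣ (P.subgroupOf H).index := hPidx
  have hKP' : K ≤ P.subgroupOf H := by
    have h1 := Cfsg.Agent.Lib.Helper84.pCore_le_sylow 2 (hP'2.toSylow hPidx')
    rwa [IsPGroup.toSylow_coe] at h1
  have hPmap : (P.subgroupOf H).map H.subtype = P := Subgroup.map_subgroupOf_eq_of_le hPH
  have hrel : K.relIndex (P.subgroupOf H) = 2 := by
    have h1 : K.relIndex (P.subgroupOf H) * (P.subgroupOf H).index = K.index :=
      Subgroup.relIndex_mul_index hKP'
    have h2 : K.index = 2 * n := by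
      rw [Subgroup.index_eq_card, Nat.card_congr e.toEquiv, DihedralGroup.nat_card]
    obtain ⟨j, hj⟩ : ∃ j : ℕ, K.relIndex (P.subgroupOf H) = 2 ^ j :=
      hP'2.index (K.subgroupOf (P.subgroupOf H))
    rw [h2, hj] at h1
    rw [hj]
    obtain ⟨c, hc⟩ := hodd
    rcases j with _ | _ | j
    · exfalso
      apply hPidx'
      rw [pow_zero, one_mul] at h1
      rw [h1]; exact dvd_mul_right 2 n
    · rfl
    · exfalso
      have h3 : 2 ^ (j + 1 + 1) * (P.subgroupOf H).index = 4 * (2 ^ j * (P.subgroupOf H).index) := by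
        ring
      omega
  refine ⟨(rot n).comap φ, x₀, hdih, ?_, ?_, ?_⟩
  · rintro g ⟨k, hk, rfl⟩
    exact Subgroup.mem_subgroupOf.mp (hKP' hk)
  · rw [← hPmap, Subgroup.relIndex_map_map_of_injective _ _ H.subtype_injective]
    exact hrel
  · ext g
    constructor
    · rintro ⟨hgP, m, hm, rfl⟩
      have hmP' : m ∈ P.subgroupOf H := Subgroup.mem_subgroupOf.mpr hgP
      obtain ⟨c, hc⟩ := hP'2 ⟨m, hmP'⟩
      have hmc : m ^ 2 ^ c = 1 := by
        have := congrArg Subtype.val hc
        simpa using this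
      obtain ⟨i, hi⟩ := (show φ m ∈ rot n from hm)
      have h1 : (φ m) ^ 2 ^ c = 1 := by rw [← map_pow, hmc, map_one]
      have h2 : (φ m) ^ n = 1 := by rw [hi]; exact r_pow_card i
      have h3 : orderOf (φ m) ∣ 2 ^ c := orderOf_dvd_of_pow_eq_one h1
      have h4 : orderOf (φ m) ∣ n := orderOf_dvd_of_pow_eq_one h2
      have h5 : Nat.Coprime (2 ^ c) n := Nat.Coprime.pow_left c (Nat.coprime_two_left.mpr hodd)
      have h6 : orderOf (φ m) = 1 := Nat.Coprime.eq_one_of_dvd (h5.coprime_dvd_left h3) h4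
      have h7 : φ m = 1 := orderOf_eq_one_iff.mp h6
      exact ⟨m, (hφker m).mp h7, rfl⟩
    · rintro ⟨k, hk, rfl⟩
      exact ⟨Subgroup.mem_subgroupOf.mp (hKP' hk), k, hKM hk, rfl⟩

end Cfsg.Agent.Lib.Helper61.DSims
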